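import Mathlib
import Cfsg.Agent.Solvable.FixedPointFree
import Cfsg.Agent.Solvable.UniqueOrderP
set_option linter.all false

/-!
# Minimal non-abelian normal subgroups of fixed-point-free groups (class two case)

`G` finite, acting without fixed points on an abelian group, `A` a maximal normal abelian
subgroup, `N` a normal subgroup centralising `A`, minimal among the non-abelian ones.
If `N` is solvable then `N` is quaternion of order 8 (`quaternion_of_free`); if `N` is not
solvable then it is perfect (`perfect_of_not_solvable`).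
-/

set_option autoImplicit false

namespace Cfsg.Agent.PermutationGroups.MinNonabelian

open Cfsg.Agent.Solvable

section general

variable {G : Type*} [Group G]

/-- An abelian normal subgroup centralising a maximal abelian normal subgroup `A` lies in `A`. -/
theorem le_of_comm (A : Subgroup G) (hAn : A.Normal) (hAc : IsMulCommutative A)
    (hAmax : ∀ B : Subgroup G, B.Normal → IsMulCommutative B → A ≤ B → B = A)
    (M : Subgroup G) (hM : M.Normal) (hMc : IsMulCommutative M)
    (hMA : M ≤ Subgroup.centralizer (A : Set G)) : M ≤ A := by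
  have hsup : A ⊔ M = A := by
    refine hAmax (A ⊔ M) (Subgroup.sup_normal A M) ?_ le_sup_left
    have hcl : A ⊔ M = Subgroup.closure ((A : Set G) ∪ (M : Set G)) := by
      rw [Subgroup.closure_union, Subgroup.closure_eq, Subgroup.closure_eq]
    rw [hcl]
    refine Subgroup.isMulCommutative_closure ?_
    rintro x (hx | hx) y (hy | hy)
    · exact congrArg Subtype.val (hAc.is_comm.comm ⟨x, hx⟩ ⟨y, hy⟩)
    · exact (Subgroup.mem_centralizer_iff.1 (hMA hy)) x hx
    · exact ((Subgroup.mem_centralizer_iff.1 (hMA hx)) y hy).symm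
    · exact congrArg Subtype.val (hMc.is_comm.comm ⟨x, hx⟩ ⟨y, hy⟩)
  rw [← hsup]
  exact le_sup_right

/-- If `N` is a minimal non-abelian normal subgroup, then `[N,N] = N` or `[N,N] ≤ A`. -/
theorem commutator_cases (A : Subgroup G) (hAn : A.Normal) (hAc : IsMulCommutative A)
    (hAmax : ∀ B : Subgroup G, B.Normal → IsMulCommutative B → A ≤ B → B = A)
    (N : Subgroup G) (hNn : N.Normal) (hNle : N ≤ Subgroup.centralizer (A : Set G))
    (hNmin : ∀ M : Subgroup G, M.Normal → M ≤ N → ¬ IsMulCommutative M → M = N) :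
    ⁅N, N⁆ = N ∨ ⁅N, N⁆ ≤ A := by
  have hD : ⁅N, N⁆.Normal := Subgroup.commutator_normal N N
  have hDN : ⁅N, N⁆ ≤ N := Subgroup.commutator_le_left N N
  by_cases hc : IsMulCommutative (⁅N, N⁆ : Subgroup G)
  · right
    exact le_of_comm A hAn hAc hAmax _ hD hc (hDN.trans hNle)
  · left
    exact hNmin _ hD hDN hc

/-- A finite nilpotent group all of whose Sylow subgroups are commutative is commutative. -/
theorem isMulCommutative_of_sylow {P : Type*} [Group P] [Finite P] [Group.IsNilpotent P]
    (h : ∀ (q : ℕ), q.Prime → ∀ S : Sylow q P, IsMulCommutative (S : Subgroup P)) :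
    IsMulCommutative P := by
  have h15 : Group.IsNilpotent P ↔
      Nonempty ((∀ p : (Nat.card P).primeFactors, ∀ S : Sylow p P, S) ≃* P) :=
    (Group.isNilpotent_of_finite_tfae (G := P)).out 0 4
  obtain ⟨e⟩ := h15.1 inferInstance
  refine ⟨⟨fun a b => ?_⟩⟩
  apply e.symm.injective
  rw [map_mul, map_mul]
  funext q S
  have hq : (q : ℕ).Prime := Nat.prime_of_mem_primeFactors q.2
  exact (h q hq S).is_comm.comm _ _

/-- A minimal non-abelian normal subgroup which is nilpotent is a `q`-group. -/
theorem isPGroup_of_nilpotent [Finite G] (N : Subgroup G) (hNn : N.Normal)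
    (hNna : ¬ IsMulCommutative N)
    (hNmin : ∀ M : Subgroup G, M.Normal → M ≤ N → ¬ IsMulCommutative M → M = N)
    (hnil : Group.IsNilpotent N) : ∃ q : ℕ, q.Prime ∧ IsPGroup q N := by
  by_contra hcon
  push Not at hcon
  apply hNna
  refine isMulCommutative_of_sylow fun q hq S => ?_
  have : Fact q.Prime := ⟨hq⟩
  by_contra hS
  apply hcon q hq
  have hSn : (S : Subgroup N).Normal := by
    have h14 : Group.IsNilpotent N ↔
        ∀ (p : ℕ), Fact p.Prime → ∀ S : Sylow p N, (S : Subgroup N).Normal :=
      (Group.isNilpotent_of_finite_tfae (G := N)).out 0 3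
    exact h14.1 hnil q ⟨hq⟩ S
  have hSc : (S : Subgroup N).Characteristic := Sylow.characteristic_of_normal S hSn
  have hmn : (Subgroup.map N.subtype (S : Subgroup N)).Normal :=
    ConjAct.normal_of_characteristic_of_normal
  have hle : Subgroup.map N.subtype (S : Subgroup N) ≤ N := Subgroup.map_subtype_le _
  have heq := hNmin _ hmn hle (by
    intro hc
    apply hS
    refine ⟨⟨fun a b => ?_⟩⟩
    have h1 := congrArg Subtype.val
      (hc.is_comm.comm ⟨(a : N), Subgroup.mem_map_of_mem N.subtype a.2⟩
        ⟨(b : N), Subgroup.mem_map_of_mem N.subtype b.2⟩)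
    apply Subtype.ext
    apply Subtype.ext
    exact h1)
  have htop : (S : Subgroup N) = ⊤ := by
    rw [eq_top_iff]
    intro x _
    have hx : (x : G) ∈ Subgroup.map N.subtype (S : Subgroup N) := by
      rw [heq]; exact x.2
    obtain ⟨y, hy, hyx⟩ := hx
    have : y = x := Subtype.ext hyx
    rw [← this]; exact hy
  intro x
  obtain ⟨k, hk⟩ := S.isPGroup' ⟨x, by rw [htop]; trivial⟩
  exact ⟨k, congrArg Subtype.val hk⟩

/-- Generalized quaternion group with central commutators: order 8. -/
theorem eq_one_of_class_two {m : ℕ} (hm : m ≠ 0)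
    (h : ∀ x y z : QuaternionGroup (2 ^ m), (x * y * x⁻¹ * y⁻¹) * z = z * (x * y * x⁻¹ * y⁻¹)) :
    m = 1 := by
  have h1 := h (QuaternionGroup.xa 0) (QuaternionGroup.a 1) (QuaternionGroup.xa 0)
  have h2 : (QuaternionGroup.xa 0 : QuaternionGroup (2 ^ m)) * QuaternionGroup.a 1
      * (QuaternionGroup.xa 0)⁻¹ * (QuaternionGroup.a 1)⁻¹ = QuaternionGroup.a (-2) := by
    rw [QuaternionGroup.xa_mul_a]
    change QuaternionGroup.xa (0 + 1) * QuaternionGroup.xa (((2 ^ m : ℕ) : ZMod (2 * 2 ^ m)) + 0)
      * QuaternionGroup.a (-1) = _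
    rw [QuaternionGroup.xa_mul_xa, QuaternionGroup.a_mul_a]
    congr 1
    have : ((2 ^ m : ℕ) : ZMod (2 * 2 ^ m)) + ((2 ^ m : ℕ) : ZMod (2 * 2 ^ m)) = 0 := by
      rw [← Nat.cast_add, ← two_mul]
      exact ZMod.natCast_self _
    linear_combination this
  rw [h2, QuaternionGroup.a_mul_xa, QuaternionGroup.xa_mul_a] at h1
  have h3 : (4 : ZMod (2 * 2 ^ m)) = 0 := by
    have := QuaternionGroup.xa.inj h1
    linear_combination this
  have h4 : (2 * 2 ^ m) ∣ 4 := by
    have : ((4 : ℕ) : ZMod (2 * 2 ^ m)) = 0 := by exact_mod_cast h3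
    exact (ZMod.natCast_eq_zero_iff _ _).1 this
  have h5 : 2 * 2 ^ m ≤ 4 := Nat.le_of_dvd (by norm_num) h4
  have h6 : 2 ^ m ≤ 2 ^ 1 := by omega
  have h7 : m ≤ 1 := (Nat.pow_le_pow_iff_right (by norm_num)).1 h6
  omega

/-- Main theorem (class two case): `[N,N] ≤ A` forces `N ≅ Q₈`. -/
theorem quaternion_of_commutator_le [Finite G] {V : Type*} [AddCommGroup V] [Nontrivial V]
    (f : G →* AddMonoid.End V) (hf : ∀ g : G, g ≠ 1 → ∀ v : V, f g v = v → v = 0)
    (A : Subgroup G)
    (N : Subgroup G) (hNn : N.Normal) (hNle : N ≤ Subgroup.centralizer (A : Set G))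
    (hNna : ¬ IsMulCommutative N)
    (hNmin : ∀ M : Subgroup G, M.Normal → M ≤ N → ¬ IsMulCommutative M → M = N)
    (hD : ⁅N, N⁆ ≤ A) : Nonempty (N ≃* QuaternionGroup 2) := by
  -- commutative subgroups are cyclic
  have hcyc : ∀ B : Subgroup G, IsMulCommutative B → IsCyclic B := by
    intro B hB
    let _ : CommGroup B := { (inferInstance : Group B) with mul_comm := hB.is_comm.comm }
    exact FixedPointFree.isCyclic_of_comm (f.comp B.subtype)
      (fun b hb m hm => hf (b : G) (by simpa using hb) m hm)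
  -- commutators are central
  have hcen : ∀ x y z : G, x ∈ N → y ∈ N → z ∈ N → (x * y * x⁻¹ * y⁻¹) * z = z * (x * y * x⁻¹ * y⁻¹) := by
    intro x y z hx hy hz
    have h1 : x * y * x⁻¹ * y⁻¹ ∈ A := hD (Subgroup.commutator_mem_commutator hx hy)
    exact (Subgroup.mem_centralizer_iff.1 (hNle hz)) _ h1
  have hcenN : ∀ x y z : N, (x * y * x⁻¹ * y⁻¹) * z = z * (x * y * x⁻¹ * y⁻¹) := by
    intro x y z
    apply Subtype.ext
    exact hcen x y z x.2 y.2 z.2
  -- nilpotent
  have hnil : Group.IsNilpotent N := by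
    have hle : commutator N ≤ Subgroup.center N := by
      rw [commutator_eq_closure, Subgroup.closure_le]
      rintro _ ⟨x, y, rfl⟩
      rw [SetLike.mem_coe, Subgroup.mem_center_iff]
      intro z
      exact (hcenN x y z).symm
    have hq : Group.IsNilpotent (N ⧸ Subgroup.center N) := by
      have hc : IsMulCommutative (N ⧸ Subgroup.center N) := by
        refine ⟨⟨?_⟩⟩
        rintro ⟨x⟩ ⟨y⟩
        change (QuotientGroup.mk (x * y) : N ⧸ Subgroup.center N) = QuotientGroup.mk (y * x)
        rw [QuotientGroup.eq]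
        have := hle (Subgroup.commutator_mem_commutator (Subgroup.mem_top y⁻¹) (Subgroup.mem_top x⁻¹))
        have e : (x * y)⁻¹ * (y * x) = y⁻¹ * x⁻¹ * y⁻¹⁻¹ * x⁻¹⁻¹ := by group
        rw [e]
        exact this
      let _ : CommGroup (N ⧸ Subgroup.center N) :=
        { (inferInstance : Group (N ⧸ Subgroup.center N)) with mul_comm := hc.is_comm.comm }
      infer_instance
    exact Group.of_quotient_center_nilpotent hq
  obtain ⟨q, hq, hpN⟩ := isPGroup_of_nilpotent N hNn hNna hNmin hnil
  have : Fact q.Prime := ⟨hq⟩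
  -- a central element of order q
  obtain ⟨c, hcD, hc1, hcq⟩ : ∃ c : N, (∀ z : N, c * z = z * c) ∧ c ≠ 1 ∧ c ^ q = 1 := by
    obtain ⟨x, y, hxy⟩ : ∃ x y : N, x * y ≠ y * x := by
      by_contra h
      push Not at h
      exact hNna ⟨⟨h⟩⟩
    set d := x * y * x⁻¹ * y⁻¹ with hd
    have hd1 : d ≠ 1 := by
      intro h
      apply hxy
      have : x * y * x⁻¹ * y⁻¹ * (y * x) = y * x := by rw [← hd, h, one_mul]
      rw [← this]; group
    have hdc : ∀ z : N, d * z = z * d := fun z => hcenN x y z
    obtain ⟨k, hk⟩ := hpN d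
    have hfin : ∃ n, d ^ q ^ n = 1 := ⟨k, hk⟩
    classical
    have hn := Nat.find_spec hfin
    have hn0 : Nat.find hfin ≠ 0 := by
      intro h0
      rw [h0, pow_zero, pow_one] at hn
      exact hd1 hn
    obtain ⟨n, hn'⟩ := Nat.exists_eq_succ_of_ne_zero hn0
    refine ⟨d ^ q ^ n, ?_, ?_, ?_⟩
    · intro z
      exact ((show Commute d z from hdc z).pow_left _).eq
    · exact Nat.find_min hfin (by omega)
    · rw [← pow_mul, ← pow_succ]
      rw [hn'] at hn
      exact hn
  -- unique subgroup of order q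
  have key : ∀ x : N, x ^ q = 1 → x ∈ Subgroup.zpowers c := by
    intro x hx
    set B : Subgroup G := Subgroup.closure {(x : G), (c : G)} with hB
    have hBc : IsMulCommutative B := by
      refine Subgroup.isMulCommutative_closure ?_
      have hxc : (x : G) * c = c * x := congrArg Subtype.val (hcD x).symm
      rintro a (rfl | rfl) b (rfl | rfl)
      · rfl
      · exact hxc
      · exact hxc.symm
      · rfl
    have hBcyc := hcyc B hBc
    let xB : B := ⟨x, Subgroup.subset_closure (by simp)⟩
    let cB : B := ⟨c, Subgroup.subset_closure (by simp)⟩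
    have hxB : xB ^ q = 1 := Subtype.ext (by
      change ((x : G)) ^ q = 1
      exact_mod_cast congrArg Subtype.val hx)
    have hcB : cB ^ q = 1 := Subtype.ext (by
      change ((c : G)) ^ q = 1
      exact_mod_cast congrArg Subtype.val hcq)
    have hcB1 : cB ≠ 1 := by
      intro h
      apply hc1
      apply Subtype.ext
      have h1 : (c : G) = 1 := congrArg (fun b : B => (b : G)) h
      exact h1
    have hoc : orderOf cB = q := orderOf_eq_prime hcB hcB1
    have hmem : xB ∈ Subgroup.zpowers cB := by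
      classical
      cases nonempty_fintype B
      have h1 := IsCyclic.card_pow_eq_one_le (α := B) (n := q) hq.pos
      have h2 : (Subgroup.zpowers cB : Set B).toFinset ⊆
          Finset.univ.filter (fun b : B => b ^ q = 1) := by
        intro b hb
        rw [Set.mem_toFinset] at hb
        obtain ⟨k, rfl⟩ := hb
        simp only [Finset.mem_filter, Finset.mem_univ, true_and]
        change (cB ^ k) ^ q = 1
        rw [← zpow_natCast, ← zpow_mul, mul_comm, zpow_mul, zpow_natCast, hcB, one_zpow]
      have h3 : (Subgroup.zpowers cB : Set B).toFinset.card = q := by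
        rw [Set.toFinset_card]
        change Fintype.card (Subgroup.zpowers cB) = q
        rw [← Nat.card_eq_fintype_card, Nat.card_zpowers, hoc]
      have h4 := Finset.eq_of_subset_of_card_le h2 (by rw [h3]; exact h1)
      have h5 : xB ∈ Finset.univ.filter (fun b : B => b ^ q = 1) := by simp [hxB]
      rw [← h4, Set.mem_toFinset] at h5
      exact h5
    obtain ⟨k, hk⟩ := Subgroup.mem_zpowers_iff.1 hmem
    refine Subgroup.mem_zpowers_iff.2 ⟨k, ?_⟩
    apply Subtype.ext
    have := congrArg Subtype.val hk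
    simpa using this
  have hU : UniqueOrderP.UniqueP q N := by
    intro x y hx hxq hyq
    have hxc := key x hxq
    have hyc := key y hyq
    -- x generates zpowers c
    have hox : orderOf x = q := orderOf_eq_prime hxq hx
    have hoc : orderOf c = q := orderOf_eq_prime hcq hc1
    have hle : Subgroup.zpowers x ≤ Subgroup.zpowers c := Subgroup.zpowers_le.2 hxc
    have heq : Subgroup.zpowers x = Subgroup.zpowers c := by
      refine Subgroup.eq_of_le_of_card_ge hle ?_
      rw [Nat.card_zpowers, Nat.card_zpowers, hox, hoc]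
    rw [heq]; exact hyc
  rcases UniqueOrderP.cyclic_or_quaternion hpN hU with h | ⟨-, m, hm, ⟨e⟩⟩
  · exfalso
    exact hNna inferInstance
  · have hm1 : m = 1 := by
      refine eq_one_of_class_two hm fun x y z => ?_
      apply e.symm.injective
      simp only [map_mul, map_inv]
      exact hcenN _ _ _
    subst hm1
    exact ⟨e⟩

/-- A solvable subgroup equal to its commutator subgroup is trivial. -/
theorem eq_bot_of_solvable_of_perfect (N : Subgroup G) (hs : Group.IsSolvable N)
    (h : ⁅N, N⁆ = N) : N = ⊥ := by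
  have h1 : commutator N = ⊤ := by
    apply Subgroup.map_injective N.subtype_injective
    rw [Subgroup.map_subtype_commutator, h, ← MonoidHom.range_eq_map, Subgroup.range_subtype]
  have h2 : ∀ n, derivedSeries N n = ⊤ := by
    intro n
    induction n with
    | zero => rfl
    | succ n ih =>
      rw [derivedSeries_succ, ih]
      exact h1
  obtain ⟨n, hn⟩ := hs.solvable
  rw [h2 n] at hn
  have : Subsingleton N := by
    rw [← Subgroup.subsingleton_iff]
    exact subsingleton_of_bot_eq_top hn.symm
  rw [Subgroup.eq_bot_iff_forall]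
  intro x hx
  exact congrArg Subtype.val (Subsingleton.elim (⟨x, hx⟩ : N) 1)

/-- Abstract form of the solvable case. -/
theorem quaternion_of_free [Finite G] {V : Type*} [AddCommGroup V] [Nontrivial V]
    (f : G →* AddMonoid.End V) (hf : ∀ g : G, g ≠ 1 → ∀ v : V, f g v = v → v = 0)
    (A : Subgroup G) (hAn : A.Normal) (hAc : IsMulCommutative A)
    (hAmax : ∀ B : Subgroup G, B.Normal → IsMulCommutative B → A ≤ B → B = A)
    (N : Subgroup G) (hNn : N.Normal) (hNle : N ≤ Subgroup.centralizer (A : Set G))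
    (hNna : ¬ IsMulCommutative N)
    (hNmin : ∀ M : Subgroup G, M.Normal → M ≤ N → ¬ IsMulCommutative M → M = N)
    (hs : Group.IsSolvable N) : Nonempty (N ≃* QuaternionGroup 2) := by
  rcases commutator_cases A hAn hAc hAmax N hNn hNle hNmin with h | h
  · exfalso
    have := eq_bot_of_solvable_of_perfect N hs h
    subst this
    exact hNna inferInstance
  · exact quaternion_of_commutator_le f hf A N hNn hNle hNna hNmin h

end general

section linear

variable {p : ℕ} [Fact p.Prime] {V : Type*} [AddCommGroup V] [Module (ZMod p) V]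

/-- The action of a linear group on the additive group of `V`. -/
def toEnd (H : Subgroup (V ≃ₗ[ZMod p] V)) : H →* AddMonoid.End V where
  toFun h := ((h : V ≃ₗ[ZMod p] V) : V →ₗ[ZMod p] V).toAddMonoidHom
  map_one' := rfl
  map_mul' _ _ := rfl

theorem toEnd_apply (H : Subgroup (V ≃ₗ[ZMod p] V)) (h : H) (v : V) :
    toEnd H h v = (h : V ≃ₗ[ZMod p] V) v := rfl

/-- A linear group regular on nonzero vectors acts fixed-point-freely. -/
theorem free_of_regular (H : Subgroup (V ≃ₗ[ZMod p] V))
    (hreg : ∀ v w : V, v ≠ 0 → w ≠ 0 → ∃! h : H, (h : V ≃ₗ[ZMod p] V) v = w)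
    (g : H) (hg : g ≠ 1) (v : V) (hv : (g : V ≃ₗ[ZMod p] V) v = v) : v = 0 := by
  by_contra hv0
  exact hg ((hreg v v hv0 hv0).unique hv rfl)

/-- Solvable case of S0686: `N` is quaternion of order 8. -/
theorem quaternion_of_solvable [Finite V] (H : Subgroup (V ≃ₗ[ZMod p] V))
    (hreg : ∀ v w : V, v ≠ 0 → w ≠ 0 → ∃! h : H, (h : V ≃ₗ[ZMod p] V) v = w)
    (hI : ∀ A : Subgroup H, A.Normal → IsCyclic A → ∃ W : Submodule (ZMod p) V,
      W ≠ ⊥ ∧ W ≠ ⊤ ∧ ∀ a ∈ A, ∀ v ∈ W, ((a : H) : V ≃ₗ[ZMod p] V) v ∈ W)
    (A : Subgroup H) (hAn : A.Normal) (hAc : IsMulCommutative A)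
    (hAmax : ∀ B : Subgroup H, B.Normal → IsMulCommutative B → A ≤ B → B = A)
    (N : Subgroup H) (hNn : N.Normal) (hNle : N ≤ Subgroup.centralizer (A : Set H))
    (hNna : ¬ IsMulCommutative N)
    (hNmin : ∀ M : Subgroup H, M.Normal → M ≤ N → ¬ IsMulCommutative M → M = N)
    (hs : Group.IsSolvable N) : Nonempty (N ≃* QuaternionGroup 2) := by
  have hVnt : Nontrivial V := by
    by_contra h
    rw [not_nontrivial_iff_subsingleton] at h
    obtain ⟨W, hW1, hW2, _⟩ := hI ⊥ inferInstance inferInstance
    exact hW1 (Subsingleton.elim _ _)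
  have : Finite (V ≃ₗ[ZMod p] V) :=
    Finite.of_injective (fun f : V ≃ₗ[ZMod p] V => (f : V → V)) DFunLike.coe_injective
  exact quaternion_of_free (toEnd H) (fun g hg v hv => free_of_regular H hreg g hg v hv)
    A hAn hAc hAmax N hNn hNle hNna hNmin hs

end linear

end Cfsg.Agent.PermutationGroups.MinNonabelian
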