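import Mathlib
set_option linter.all false

/-!
Regular normal subgroups of a permutation group: `G` acts on `X`, `N` is a normal subgroup
of `G` acting regularly.
-/

set_option autoImplicit false

open scoped Pointwise
open MulAction SubMulAction

namespace Cfsg.Agent.PermutationGroups.RegularNormal

variable {G : Type*} [Group G] {X : Type*} [MulAction G X] {N : Subgroup G}

/-- A semiregular subgroup acts injectively at each point. -/
theorem eq_of_smul_eq (hreg : ∀ x : X, stabilizer N x = ⊥) {n m : G} (hn : n ∈ N) (hm : m ∈ N)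
    {x : X} (h : n • x = m • x) : n = m := by
  have h1 : (⟨m⁻¹ * n, N.mul_mem (N.inv_mem hm) hn⟩ : N) ∈ stabilizer N x := by
    rw [mem_stabilizer_iff, Subgroup.mk_smul, mul_smul, h, inv_smul_smul]
  rw [hreg x, Subgroup.mem_bot] at h1
  have h2 : m⁻¹ * n = 1 := congrArg Subtype.val h1
  exact (inv_mul_eq_one.mp h2).symm

/-- Each point is `n • x` for some `n ∈ N`. -/
theorem exists_smul_eq (htrans : IsPretransitive N X) (x y : X) : ∃ n ∈ N, n • x = y := by
  obtain ⟨n, hn⟩ := htrans.exists_smul_eq x y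
  exact ⟨n, n.2, hn⟩

/-- A regular subgroup has as many elements as there are points. -/
theorem card_eq (htrans : IsPretransitive N X) (hreg : ∀ x : X, stabilizer N x = ⊥) (x : X) :
    Nat.card N = Nat.card X := by
  refine Nat.card_congr (Equiv.ofBijective (fun n : N => n • x) ⟨?_, ?_⟩)
  · intro n m h
    exact Subtype.ext (eq_of_smul_eq hreg n.2 m.2 h)
  · intro y
    exact htrans.exists_smul_eq x y

/-- If `g` fixes `x` then `g • n • x = (g * n * g⁻¹) • x`. -/
theorem smul_smul_eq_conj {g : G} {x : X} (hg : g • x = x) (n : G) :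
    g • n • x = (g * n * g⁻¹) • x := by
  have : g⁻¹ • x = x := by rw [inv_smul_eq_iff, hg]
  rw [mul_smul, this, mul_smul]

/-- For `n` in a regular normal subgroup, `{n • x, n⁻¹ • x}` is a block of the stabiliser
of `x`. -/
theorem isBlock_inv [N.Normal] (hreg : ∀ x : X, stabilizer N x = ⊥) (x : X) {n : G} (hn : n ∈ N) :
    IsBlock (fixingSubgroup G ({x} : Set X))
      ({y | (y : X) = n • x ∨ (y : X) = n⁻¹ • x} : Set (ofFixingSubgroup G ({x} : Set X))) := by
  rw [isBlock_iff_smul_eq_of_mem]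
  rintro ⟨g, hg⟩ ⟨a, ha⟩ hmem hgmem
  have hgx : g • x = x := by
    rw [mem_fixingSubgroup_iff] at hg
    exact hg x rfl
  have hconj : g * n * g⁻¹ ∈ N := Subgroup.Normal.conj_mem ‹_› n hn g
  have h1 : g • n • x = (g * n * g⁻¹) • x := smul_smul_eq_conj hgx n
  have h2 : g • n⁻¹ • x = (g * n * g⁻¹)⁻¹ • x := by
    rw [smul_smul_eq_conj hgx]
    congr 1
    group
  have hcases : g * n * g⁻¹ = n ∨ g * n * g⁻¹ = n⁻¹ := by
    have hgmem' : g • a = n • x ∨ g • a = n⁻¹ • x := hgmem
    have hmem' : a = n • x ∨ a = n⁻¹ • x := hmem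
    rcases hmem' with rfl | rfl
    · rw [h1] at hgmem'
      rcases hgmem' with h | h
      · exact Or.inl (eq_of_smul_eq hreg hconj hn h)
      · exact Or.inr (eq_of_smul_eq hreg hconj (N.inv_mem hn) h)
    · rw [h2] at hgmem'
      rcases hgmem' with h | h
      · right
        exact inv_eq_iff_eq_inv.mp (eq_of_smul_eq hreg (N.inv_mem hconj) hn h)
      · left
        exact inv_injective (eq_of_smul_eq hreg (N.inv_mem hconj) (N.inv_mem hn) h)
  ext ⟨y, hy⟩
  rw [Set.mem_smul_set_iff_inv_smul_mem]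
  change (g⁻¹ • y = n • x ∨ g⁻¹ • y = n⁻¹ • x) ↔ (y = n • x ∨ y = n⁻¹ • x)
  rw [inv_smul_eq_iff, inv_smul_eq_iff, h1, h2]
  rcases hcases with h | h <;> rw [h]
  rw [inv_inv, or_comm]

/-- For `n, m` in a regular normal subgroup with `n ^ 2 = 1`, `{m • x, (n * m) • x}` is a block of
the pointwise stabiliser of `x` and `n • x`. -/
theorem isBlock_coset [N.Normal] (hreg : ∀ x : X, stabilizer N x = ⊥) (x : X) {n m : G}
    (hn : n ∈ N) (hm : m ∈ N) (hn2 : n * n = 1) :
    IsBlock (fixingSubgroup G ({x, n • x} : Set X))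
      ({y | (y : X) = m • x ∨ (y : X) = (n * m) • x} :
        Set (ofFixingSubgroup G ({x, n • x} : Set X))) := by
  rw [isBlock_iff_smul_eq_of_mem]
  rintro ⟨g, hg⟩ ⟨a, ha⟩ hmem hgmem
  rw [mem_fixingSubgroup_iff] at hg
  have hgx : g • x = x := hg x (by simp)
  have hgn : g * n * g⁻¹ = n := by
    refine eq_of_smul_eq hreg (Subgroup.Normal.conj_mem ‹_› n hn g) hn (x := x) ?_
    rw [← smul_smul_eq_conj hgx]
    exact hg (n • x) (by simp)
  have hconj : g * m * g⁻¹ ∈ N := Subgroup.Normal.conj_mem ‹_› m hm g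
  have h1 : g • m • x = (g * m * g⁻¹) • x := smul_smul_eq_conj hgx m
  have h2 : g • (n * m) • x = (n * (g * m * g⁻¹)) • x := by
    rw [smul_smul_eq_conj hgx]
    congr 1
    calc g * (n * m) * g⁻¹ = (g * n * g⁻¹) * (g * m * g⁻¹) := by group
      _ = _ := by rw [hgn]
  have hcases : g * m * g⁻¹ = m ∨ g * m * g⁻¹ = n * m := by
    have hgmem' : g • a = m • x ∨ g • a = (n * m) • x := hgmem
    have hmem' : a = m • x ∨ a = (n * m) • x := hmem
    rcases hmem' with rfl | rfl
    · rw [h1] at hgmem'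
      rcases hgmem' with h | h
      · exact Or.inl (eq_of_smul_eq hreg hconj hm h)
      · exact Or.inr (eq_of_smul_eq hreg hconj (N.mul_mem hn hm) h)
    · rw [h2] at hgmem'
      rcases hgmem' with h | h
      · right
        have h3 := eq_of_smul_eq hreg (N.mul_mem hn hconj) hm h
        calc g * m * g⁻¹ = n * (n * (g * m * g⁻¹)) := by rw [← mul_assoc n n, hn2, one_mul]
          _ = n * m := by rw [h3]
      · left
        exact mul_left_cancel (eq_of_smul_eq hreg (N.mul_mem hn hconj) (N.mul_mem hn hm) h)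
  ext ⟨y, hy⟩
  rw [Set.mem_smul_set_iff_inv_smul_mem]
  change (g⁻¹ • y = m • x ∨ g⁻¹ • y = (n * m) • x) ↔ (y = m • x ∨ y = (n * m) • x)
  rw [inv_smul_eq_iff, inv_smul_eq_iff, h1, h2]
  rcases hcases with h | h <;> rw [h]
  rw [← mul_assoc, hn2, one_mul, or_comm]

end Cfsg.Agent.PermutationGroups.RegularNormal
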