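import Mathlib
set_option linter.all false

/-!
* a Sylow `p`-subgroup of a finite group acting transitively on `p ^ f` points is transitive;
* a finite `p`-group acting linearly on a non-zero module of characteristic `p` fixes a
  non-zero vector.
-/

set_option autoImplicit false

namespace Cfsg.Agent.PermutationGroups.SylowFixed

/-- If a finite group acts transitively on a set of `p ^ f` points, its Sylow `p`-subgroups act
transitively. -/
theorem sylow_isPretransitive {G : Type*} [Group G] [Finite G] {p : ℕ} [Fact p.Prime]
    {Ω : Type*} [MulAction G Ω] [MulAction.IsPretransitive G Ω] {f : ℕ}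
    (hcard : Nat.card Ω = p ^ f) (P : Sylow p G) : MulAction.IsPretransitive P Ω := by
  classical
  have hp : p.Prime := Fact.out
  have hΩ : Finite Ω := Nat.finite_of_card_ne_zero (by rw [hcard]; exact pow_ne_zero _ hp.ne_zero)
  have key : ∀ a : Ω, MulAction.orbit P a = Set.univ := by
    intro a
    -- sizes
    have h1 : Nat.card (MulAction.orbit P a) * Nat.card (MulAction.stabilizer P a) =
        Nat.card P := by
      rw [← Nat.card_prod]
      exact Nat.card_congr (MulAction.orbitProdStabilizerEquivGroup P a)
    have h2 : Nat.card (MulAction.orbit G a) * Nat.card (MulAction.stabilizer G a) =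
        Nat.card G := by
      rw [← Nat.card_prod]
      exact Nat.card_congr (MulAction.orbitProdStabilizerEquivGroup G a)
    have h3 : Nat.card (MulAction.orbit G a) = p ^ f := by
      rw [MulAction.orbit_eq_univ, Nat.card_coe_set_eq, Set.ncard_univ, hcard]
    rw [h3] at h2
    -- stabilizer of P divides stabilizer of G
    have h4 : Nat.card (MulAction.stabilizer P a) ∣ Nat.card (MulAction.stabilizer G a) := by
      let φ : MulAction.stabilizer P a →* MulAction.stabilizer G a :=
        { toFun := fun g => ⟨((g : P) : G), g.2⟩
          map_one' := rfl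
          map_mul' := fun _ _ => rfl }
      refine Subgroup.card_dvd_of_injective φ ?_
      intro x y hxy
      apply Subtype.ext
      apply Subtype.ext
      exact congrArg (fun z : MulAction.stabilizer G a => (z : G)) hxy
    obtain ⟨j, hj⟩ : ∃ j, Nat.card (MulAction.orbit P a) = p ^ j := P.2.card_orbit a
    have h5 : Nat.card P = p ^ (Nat.card G).factorization p := P.card_eq_multiplicity
    have hs : Nat.card (MulAction.stabilizer G a) ≠ 0 := Nat.card_pos.ne'
    have h6 : (Nat.card G).factorization p =
        f + (Nat.card (MulAction.stabilizer G a)).factorization p := by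
      rw [← h2, Nat.factorization_mul (pow_ne_zero _ hp.ne_zero) hs, Finsupp.add_apply,
        hp.factorization_pow, Finsupp.single_eq_same]
    have h7 : p ^ (f + (Nat.card (MulAction.stabilizer G a)).factorization p) ∣
        p ^ j * Nat.card (MulAction.stabilizer G a) := by
      rw [← h6, ← h5, ← h1, hj]
      exact Nat.mul_dvd_mul_left _ h4
    have h8 : f + (Nat.card (MulAction.stabilizer G a)).factorization p ≤
        j + (Nat.card (MulAction.stabilizer G a)).factorization p := by
      have := (hp.pow_dvd_iff_le_factorization
        (mul_ne_zero (pow_ne_zero _ hp.ne_zero) hs)).1 h7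
      rwa [Nat.factorization_mul (pow_ne_zero _ hp.ne_zero) hs, Finsupp.add_apply,
        hp.factorization_pow, Finsupp.single_eq_same] at this
    have h9 : f ≤ j := by omega
    have h10 : Nat.card Ω ≤ Nat.card (MulAction.orbit P a) := by
      rw [hcard, hj]; exact Nat.pow_le_pow_right hp.pos h9
    rw [Nat.card_coe_set_eq] at h10
    exact Set.eq_of_subset_of_ncard_le (Set.subset_univ _) (by rwa [Set.ncard_univ]) Set.finite_univ
  refine ⟨fun a b => ?_⟩
  have : b ∈ MulAction.orbit P a := by rw [key a]; trivial
  obtain ⟨g, hg⟩ := this
  exact ⟨g, hg⟩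

/-- Auxiliary form of `exists_ne_zero_fixed` over `ZMod p`. -/
theorem exists_ne_zero_fixed_zmod {P : Type*} [Group P] [Finite P] {p : ℕ} [Fact p.Prime]
    (hP : IsPGroup p P) {A : Type*} [AddCommGroup A] [DistribMulAction P A] [Module (ZMod p) A]
    {v : A} (hv : v ≠ 0) :
    ∃ x ∈ AddSubgroup.closure (MulAction.orbit P v), x ≠ 0 ∧ ∀ g : P, g • x = x := by
  classical
  let B : Submodule (ZMod p) A := Submodule.span (ZMod p) (MulAction.orbit P v)
  have hBcl : ∀ x : A, x ∈ B ↔ x ∈ AddSubgroup.closure (MulAction.orbit P v) := by
    intro x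
    constructor
    · intro hx
      induction hx using Submodule.span_induction with
      | mem y hy => exact AddSubgroup.subset_closure hy
      | zero => exact AddSubgroup.zero_mem _
      | add y z _ _ hy hz => exact AddSubgroup.add_mem _ hy hz
      | smul c y _ hy =>
        obtain ⟨n, rfl⟩ := ZMod.natCast_zmod_surjective c
        rw [Nat.cast_smul_eq_nsmul]
        exact AddSubgroup.nsmul_mem _ hy n
    · intro hx
      have : AddSubgroup.closure (MulAction.orbit P v) ≤ B.toAddSubgroup := by
        rw [AddSubgroup.closure_le]
        exact Submodule.subset_span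
      exact this hx
  have hBst : ∀ (g : P) (x : A), x ∈ B → g • x ∈ B := by
    intro g x hx
    rw [hBcl] at hx ⊢
    induction hx using AddSubgroup.closure_induction with
    | mem y hy =>
      apply AddSubgroup.subset_closure
      obtain ⟨h, rfl⟩ := hy
      exact ⟨g * h, by simp [mul_smul]⟩
    | zero => rw [smul_zero]; exact AddSubgroup.zero_mem _
    | add y z _ _ hy hz => rw [smul_add]; exact AddSubgroup.add_mem _ hy hz
    | neg y _ hy => rw [smul_neg]; exact AddSubgroup.neg_mem _ hy
  have hfin : (MulAction.orbit P v).Finite := Set.finite_range _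
  have : Module.Finite (ZMod p) B := Module.Finite.span_of_finite (ZMod p) hfin
  have : Finite B := Module.finite_of_finite (ZMod p)
  let actB : MulAction P B :=
    { smul := fun g x => ⟨g • (x : A), hBst g x x.2⟩
      one_smul := fun x => Subtype.ext (one_smul P (x : A))
      mul_smul := fun g h x => Subtype.ext (mul_smul g h (x : A)) }
  have hvB : v ∈ B := Submodule.subset_span (MulAction.mem_orbit_self v)
  have hdvd : p ∣ Nat.card B := by
    have hne : (⟨v, hvB⟩ : B) ≠ 0 := fun h => hv (congrArg Subtype.val h)
    have hord : addOrderOf (⟨v, hvB⟩ : B) = p := by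
      apply addOrderOf_eq_prime
      · apply Subtype.ext
        show p • v = 0
        rw [← Nat.cast_smul_eq_nsmul (ZMod p), ZMod.natCast_self, zero_smul]
      · exact hne
    exact hord.symm.dvd.trans (addOrderOf_dvd_natCard _)
  obtain ⟨b, hb, hb0⟩ := hP.exists_fixed_point_of_prime_dvd_card_of_fixed_point B hdvd
    (a := (0 : B)) (fun g => Subtype.ext (smul_zero g))
  refine ⟨b, (hBcl _).1 b.2, fun h => hb0 (Subtype.ext h.symm), fun g => ?_⟩
  exact congrArg Subtype.val (hb g)

/-- A finite `p`-group acting by automorphisms on a non-trivial abelian group of exponent `p`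
(not necessarily finite) fixes a non-zero element, which may be taken in the subgroup generated
by the orbit of any given non-zero element. -/
theorem exists_ne_zero_fixed {P : Type*} [Group P] [Finite P] {p : ℕ} [Fact p.Prime]
    (hP : IsPGroup p P) {A : Type*} [AddCommGroup A] [DistribMulAction P A]
    (hA : ∀ x : A, p • x = 0) {v : A} (hv : v ≠ 0) :
    ∃ x ∈ AddSubgroup.closure (MulAction.orbit P v), x ≠ 0 ∧ ∀ g : P, g • x = x :=
  @exists_ne_zero_fixed_zmod P _ _ p _ hP A _ _ (AddCommGroup.zmodModule hA) v hv

/-- A finite `p`-group acting linearly on a non-zero space over a field of characteristic `p`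
fixes a non-zero vector; the fixed vector may be taken inside any given invariant subspace. -/
theorem exists_ne_zero_fixed_of_representation {P : Type*} [Group P] [Finite P] {p : ℕ}
    [Fact p.Prime] (hP : IsPGroup p P) {K : Type*} [Field K] [CharP K p] {V : Type*}
    [AddCommGroup V] [Module K V] (ρ : Representation K P V) (W : Submodule K V)
    (hW : ∀ (g : P) (w : V), w ∈ W → ρ g w ∈ W) (hW0 : W ≠ ⊥) :
    ∃ w ∈ W, w ≠ 0 ∧ ∀ g : P, ρ g w = w := by
  obtain ⟨v, hvW, hv0⟩ := Submodule.exists_mem_ne_zero_of_ne_bot hW0
  let _ : DistribMulAction P V :=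
    { smul := fun g x => ρ g x
      one_smul := fun x => by
        show ρ 1 x = x
        rw [map_one]; rfl
      mul_smul := fun g h x => by
        show ρ (g * h) x = ρ g (ρ h x)
        rw [map_mul]; rfl
      smul_zero := fun g => by
        show ρ g 0 = 0
        exact map_zero _
      smul_add := fun g x y => by
        show ρ g (x + y) = ρ g x + ρ g y
        exact map_add _ _ _ }
  have hA : ∀ x : V, p • x = 0 := by
    intro x
    rw [← Nat.cast_smul_eq_nsmul K, CharP.cast_eq_zero, zero_smul]
  obtain ⟨x, hx, hx0, hfix⟩ := exists_ne_zero_fixed hP hA hv0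
  refine ⟨x, ?_, hx0, hfix⟩
  have : AddSubgroup.closure (MulAction.orbit P v) ≤ W.toAddSubgroup := by
    rw [AddSubgroup.closure_le]
    rintro _ ⟨g, rfl⟩
    exact hW g v hvW
  exact this hx

end Cfsg.Agent.PermutationGroups.SylowFixed
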